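import Mathlib
import Cfsg.Agent.Lib.AutCl30.ChevOrth

/-!
The Chevalley group of type `B₂` as an orthogonal group in dimension five, in every
characteristic.
-/

set_option autoImplicit false

namespace H30

open QuadraticMap Module H12 H38 Cfsg Cfsg.Lie Matrix

variable {F : Type*} [Field F]

section Move

variable {V : Type*} [AddCommGroup V] [Module F V] {Q : QuadraticForm F V}

/-- A group containing enough Eichler transformations moves every hyperbolic pair of `W` into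
the lines of a fixed one. -/
theorem exists_move_hyp {W : Submodule F V} {S : Subgroup (O Q)} {e f : V} (h : IsHyp Q e f)
    (he : e ∈ W) (hf : f ∈ W) (hS : ∀ s ∈ S, ∀ w ∈ W, s.1 w ∈ W)
    (hE : ∀ w ∈ W, polar Q e w = 0 → eich Q e w ∈ S)
    (hF : ∀ w ∈ W, polar Q f w = 0 → eich Q f w ∈ S)
    (hz : ∃ z ∈ W, z ∈ perp Q e f ∧ Q z ≠ 0)
    (hn : ∀ u ∈ W, u ∈ perp Q e f → u ≠ 0 → Q u = 0 → ∃ y ∈ W, polar Q e y = 0 ∧ polar Q u y ≠ 0)
    {u v : V} (huv : IsHyp Q u v) (hu : u ∈ W) (hv : v ∈ W) :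
    ∃ s ∈ S, ∃ c : F, c ≠ 0 ∧ s.1 u = c • e ∧ s.1 v = c⁻¹ • f := by
  have A : ∀ {e f : V}, IsHyp Q e f → e ∈ W → f ∈ W →
      (∀ w ∈ W, polar Q e w = 0 → eich Q e w ∈ S) → ∀ u ∈ W, Q u = 0 → polar Q e u ≠ 0 →
      ∃ s ∈ S, s.1 e = e ∧ s.1 u = polar Q e u • f := by
    intro e f h he hf hE u hu hq heu
    have h1 : IsHyp Q e ((polar Q e u)⁻¹ • u) :=
      ⟨h.he, by rw [Q_smul, hq, mul_zero], by rw [B_smul_right, inv_mul_cancel₀ heu]⟩
    have h2 : polar Q e ((polar Q e u)⁻¹ • u - f) = 0 := by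
      rw [polar_sub_right, h1.hef, h.hef, sub_self]
    refine ⟨_, hE _ (W.sub_mem (W.smul_mem _ hu) hf) h2, eich_apply_self h.he h2, ?_⟩
    have := eich_map_hyp h1 h
    rwa [map_smul, inv_smul_eq_iff₀ heu] at this
  have A1 : ∀ u ∈ W, Q u = 0 → polar Q e u ≠ 0 → PtRel S u f := fun u hu hq heu =>
    let ⟨s, hs, _, h1⟩ := A h he hf hE u hu hq heu; ⟨s, hs, _, heu, h1⟩
  have A2 : ∀ u ∈ W, Q u = 0 → polar Q f u ≠ 0 → PtRel S u e := fun u hu hq heu =>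
    let ⟨s, hs, _, h1⟩ := A h.symm hf he hF u hu hq heu; ⟨s, hs, _, heu, h1⟩
  have C : PtRel S f e := by
    obtain ⟨w, hwW, hw, hw0⟩ := hz
    have h1 : Q ((-Q w) • e + (1 : F) • f + w) = 0 := by rw [h.Q_comb' _ _ hw]; ring
    have h2 : (-Q w) • e + (1 : F) • f + w ∈ W :=
      W.add_mem (W.add_mem (W.smul_mem _ he) (W.smul_mem _ hf)) hwW
    exact (A1 _ h2 h1 (by rw [h.B_e_comb _ _ hw]; simp)).symm.trans
      (A2 _ h2 h1 (by rw [h.B_f_comb _ _ hw]; simpa using hw0))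
  have D : PtRel S u e := by
    by_cases h1 : polar Q e u = 0
    · by_cases h2 : polar Q f u = 0
      · obtain ⟨y, hy, hey, huy⟩ := hn u hu ⟨h1, h2⟩ huv.e_ne huv.he
        refine (PtRel.of_apply (hE y hy hey) u).trans
          (A2 _ (hS _ (hE y hy hey) _ hu) (by rw [O.map_Q, huv.he]) ?_)
        rwa [eich_apply_of_orth_left h.he hey (by rwa [polar_comm]), polar_add_right, h2,
          B_smul_right, h.hfe, zero_add, mul_one]
      · exact A2 u hu huv.he h2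
    · exact (A1 u hu huv.he h1).trans C
  obtain ⟨s, hs, c, hc, h1⟩ := D
  have h2 : polar Q e (s.1 v) = c⁻¹ := by
    have := O.map_B s u v
    rw [h1, B_smul_left, huv.hef] at this
    exact eq_inv_of_mul_eq_one_right this
  obtain ⟨s', hs', h3, h4⟩ := A h he hf hE _ (hS s hs v hv) (by rw [O.map_Q, huv.hf])
    (by rw [h2]; exact inv_ne_zero hc)
  exact ⟨s' * s, S.mul_mem hs' hs, c, hc, by rw [O.mul_apply, h1, map_smul, h3],
    by rw [O.mul_apply, h4, h2]⟩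

/-- If every element is a product of an element of `S` and an element of a commutative set
normalising `S`, then `S` contains the commutator subgroup. -/
theorem commutator_le_of_factor {G : Type*} [Group G] {S : Subgroup G} {T : Set G}
    (h1 : ∀ g, ∃ s ∈ S, s * g ∈ T) (h2 : ∀ a ∈ T, ∀ b ∈ T, a * b = b * a)
    (h3 : ∀ a ∈ T, ∀ s ∈ S, a * s * a⁻¹ ∈ S) : commutator G ≤ S := by
  have hN : S.Normal := ⟨fun n hn g => by
    obtain ⟨s, hs, ht⟩ := h1 g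
    have := S.mul_mem (S.mul_mem (S.inv_mem hs) (h3 _ ht n hn)) hs
    convert this using 1
    group⟩
  rw [commutator_def, Subgroup.commutator_le]
  intro a _ b _
  obtain ⟨s, hs, ha⟩ := h1 a
  obtain ⟨s', hs', hb⟩ := h1 b
  rw [← QuotientGroup.eq_one_iff]
  change QuotientGroup.mk' S _ = 1
  have e1 : QuotientGroup.mk' S a = QuotientGroup.mk' S (s * a) := by
    rw [map_mul, show QuotientGroup.mk' S s = 1 from (QuotientGroup.eq_one_iff _).2 hs, one_mul]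
  have e2 : QuotientGroup.mk' S b = QuotientGroup.mk' S (s' * b) := by
    rw [map_mul, show QuotientGroup.mk' S s' = 1 from (QuotientGroup.eq_one_iff _).2 hs', one_mul]
  rw [map_commutatorElement, commutatorElement_eq_one_iff_mul_comm, e1, e2, ← map_mul, ← map_mul,
    h2 _ ha _ hb]

end Move

/-- The index type of the five-dimensional space. -/
abbrev I5 : Type := Unit ⊕ (Fin 2 ⊕ Fin 2)

/-- A vector given by its coordinates. -/
def mk5 (z a b c d : F) : I5 → F := Sum.elim (fun _ => z) (Sum.elim ![a, b] ![c, d])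

theorem eq_mk5 (v : I5 → F) : v = mk5 (v (.inl ())) (v (.inr (.inl 0))) (v (.inr (.inl 1)))
    (v (.inr (.inr 0))) (v (.inr (.inr 1))) := by
  funext i
  rcases i with _ | i | i
  · rfl
  all_goals fin_cases i <;> rfl

theorem exists_mk5 (v : I5 → F) : ∃ z a b c d, v = mk5 z a b c d := ⟨_, _, _, _, _, eq_mk5 v⟩

theorem mk5_inj {z a b c d z' a' b' c' d' : F} : mk5 z a b c d = mk5 z' a' b' c' d' ↔
    z = z' ∧ a = a' ∧ b = b' ∧ c = c' ∧ d = d' := by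
  refine ⟨fun h => ⟨congrFun h (.inl ()), congrFun h (.inr (.inl 0)), congrFun h (.inr (.inl 1)),
    congrFun h (.inr (.inr 0)), congrFun h (.inr (.inr 1))⟩, ?_⟩
  rintro ⟨rfl, rfl, rfl, rfl, rfl⟩; rfl

theorem mk5_add (z a b c d z' a' b' c' d' : F) : mk5 z a b c d + mk5 z' a' b' c' d' =
    mk5 (z + z') (a + a') (b + b') (c + c') (d + d') := eq_mk5 _

theorem mk5_sub (z a b c d z' a' b' c' d' : F) : mk5 z a b c d - mk5 z' a' b' c' d' =
    mk5 (z - z') (a - a') (b - b') (c - c') (d - d') := eq_mk5 _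

theorem smul_mk5 (t z a b c d : F) : t • mk5 z a b c d =
    mk5 (t * z) (t * a) (t * b) (t * c) (t * d) := eq_mk5 _

theorem mk5_zero : mk5 (0 : F) 0 0 0 0 = 0 := (eq_mk5 0).symm

theorem Q_mk5 (z a b c d : F) : QOdd F 2 (mk5 z a b c d) = z ^ 2 + (a * c + b * d) := by
  rw [QOdd_apply, quadFormOdd, Fin.sum_univ_two]; rfl

theorem B_mk5 (z a b c d z' a' b' c' d' : F) :
    polar (QOdd F 2) (mk5 z a b c d) (mk5 z' a' b' c' d') =
      2 * z * z' + (a * c' + c * a' + (b * d' + d * b')) := by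
  rw [polar_QOdd, Fin.sum_univ_two]; rfl

/-- The first vectors of the root elements. -/
def b2A (F : Type*) [Field F] : ℕ → I5 → F
  | 0 | 1 | 3 => mk5 0 0 0 1 0
  | 2 => mk5 0 0 0 0 1
  | 5 => mk5 0 0 1 0 0
  | _ => mk5 0 1 0 0 0

/-- The second vectors of the root elements. -/
def b2B (t : F) : ℕ → I5 → F
  | 0 => mk5 0 0 0 0 (-t)
  | 1 | 2 => mk5 (-t) 0 0 0 0
  | 3 => mk5 0 0 (-t) 0 0
  | 4 => mk5 0 0 0 0 t
  | 5 | 6 => mk5 t 0 0 0 0
  | _ => mk5 0 0 t 0 0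

/-- The root elements of type `B₂`. -/
noncomputable def b2X (r : ℕ) (t : F) : O (QOdd F 2) := eich _ (b2A F r) (b2B t r)

/-- The action of the root elements in coordinates. -/
def b2F (t z a b c d : F) : ℕ → I5 → F
  | 0 => mk5 z a b (c - t * b) (d + t * a)
  | 1 => mk5 (z + t * a) a b (c - 2 * t * z - t ^ 2 * a) d
  | 2 => mk5 (z + t * b) a b c (d - 2 * t * z - t ^ 2 * b)
  | 3 => mk5 z a (b + t * a) (c - t * d) d
  | 4 => mk5 z (a + t * b) b c (d - t * c)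
  | 5 => mk5 (z - t * d) a (b + 2 * t * z - t ^ 2 * d) c d
  | 6 => mk5 (z - t * c) (a + 2 * t * z - t ^ 2 * c) b c d
  | _ => mk5 z (a + t * d) (b - t * c) c d

theorem b2A_Q {r : ℕ} (hr : r < 8) : QOdd F 2 (b2A F r) = 0 := by
  interval_cases r <;> simp [b2A, Q_mk5]

theorem b2A_B {r : ℕ} (hr : r < 8) (t : F) : polar (QOdd F 2) (b2A F r) (b2B t r) = 0 := by
  interval_cases r <;> simp [b2A, b2B, B_mk5]

theorem b2X_apply {r : ℕ} (hr : r < 8) (t z a b c d : F) :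
    (b2X r t).1 (mk5 z a b c d) = b2F t z a b c d r := by
  rw [b2X, eich_apply (b2A_Q hr) (b2A_B hr t)]
  interval_cases r <;>
    simp only [b2A, b2B, b2F, B_mk5, Q_mk5, smul_mk5, mk5_add, mk5_sub, mk5_inj] <;>
    refine ⟨?_, ?_, ?_, ?_, ?_⟩ <;> ring

/-- The commutator terms of type `B₂`. -/
def b2T : ℕ → ℕ → List (ℕ × ℤ × ℕ × ℕ)
  | 0, 5 => [(1, 1, 1, 1), (3, -1, 1, 2)]
  | 0, 6 => [(2, -1, 1, 1), (4, 1, 1, 2)]
  | 1, 2 => [(0, 2, 1, 1)]
  | 1, 4 => [(2, 1, 1, 1), (0, 1, 2, 1)]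
  | 1, 5 => [(3, -2, 1, 1)]
  | 1, 7 => [(5, -1, 1, 1), (3, 1, 2, 1)]
  | 2, 1 => [(0, -2, 1, 1)]
  | 2, 3 => [(1, 1, 1, 1), (0, -1, 2, 1)]
  | 2, 6 => [(4, -2, 1, 1)]
  | 2, 7 => [(6, 1, 1, 1), (4, -1, 2, 1)]
  | 3, 2 => [(1, -1, 1, 1), (0, -1, 1, 2)]
  | 3, 6 => [(5, 1, 1, 1), (7, 1, 1, 2)]
  | 4, 1 => [(2, -1, 1, 1), (0, 1, 1, 2)]
  | 4, 5 => [(6, 1, 1, 1), (7, -1, 1, 2)]
  | 5, 0 => [(1, -1, 1, 1), (3, -1, 2, 1)]
  | 5, 1 => [(3, 2, 1, 1)]
  | 5, 4 => [(6, -1, 1, 1), (7, -1, 2, 1)]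
  | 5, 6 => [(7, 2, 1, 1)]
  | 6, 0 => [(2, 1, 1, 1), (4, 1, 2, 1)]
  | 6, 2 => [(4, 2, 1, 1)]
  | 6, 3 => [(5, -1, 1, 1), (7, 1, 2, 1)]
  | 6, 5 => [(7, -2, 1, 1)]
  | 7, 1 => [(5, 1, 1, 1), (3, 1, 1, 2)]
  | 7, 2 => [(6, -1, 1, 1), (4, -1, 1, 2)]
  | _, _ => []

theorem b2T_eq' : ∀ r < 8, ∀ s < 8, decide (chevB2.commTerms r s = b2T r s) = true := by
  decide +kernel

theorem b2T_eq : ∀ r < 8, ∀ s < 8, chevB2.commTerms r s = b2T r s := fun r hr s hs =>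
  of_decide_eq_true (b2T_eq' r hr s hs)

theorem b2_neg : ∀ r < 8, chevB2.neg r = 7 - r := by decide +kernel

theorem O5_ext {g h : O (QOdd F 2)} (H : ∀ z a b c d, g.1 (mk5 z a b c d) = h.1 (mk5 z a b c d)) :
    g = h := O.ext fun v => by
  obtain ⟨z, a, b, c, d, rfl⟩ := exists_mk5 v
  exact H ..

variable (F) in
/-- The Steinberg relations of type `B₂` in the orthogonal group. -/
noncomputable def b2St : StRel chevB2 F (O (QOdd F 2)) where
  x := b2X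
  x_add r hr t u := by
    change r < 8 at hr
    refine O5_ext fun z a b c d => ?_
    rw [O.mul_apply, b2X_apply hr, b2X_apply hr]
    interval_cases r <;> simp only [b2F] <;> rw [b2X_apply (by norm_num)] <;>
      simp only [b2F, mk5_inj, true_and, and_true] <;> constructor <;> ring
  comm r hr s hs h1 h2 t u := by
    change r < 8 at hr
    change s < 8 at hs
    rw [ChevalleyDatum.commWord, b2T_eq r hr s hs]
    rw [b2_neg r hr] at h2
    refine O5_ext fun z a b c d => ?_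
    interval_cases r <;> interval_cases s <;> first
      | exact absurd rfl h1
      | exact absurd rfl h2
      | (simp (disch := decide) only [b2T, List.map_cons, List.map_nil, List.prod_cons,
          List.prod_nil, mul_one, O.mul_apply, b2X_apply, b2F, mk5_inj, Int.cast_one, Int.cast_neg,
          Int.cast_ofNat]
         all_goals (refine ⟨?_, ?_, ?_, ?_, ?_⟩ <;> first | trivial | ring))

theorem eich_e0 (z a b d : F) : eich (QOdd F 2) (mk5 0 1 0 0 0) (mk5 z a b 0 d) =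
    b2X 6 z * b2X 7 b * b2X 4 d := O5_ext fun z' a' b' c' d' => by
  rw [eich_apply (by simp [Q_mk5]) (by simp [B_mk5])]
  simp (disch := decide) only [O.mul_apply, b2X_apply, b2F, mk5_inj, B_mk5, Q_mk5, smul_mk5,
    mk5_add, mk5_sub]
  refine ⟨?_, ?_, ?_, ?_, ?_⟩ <;> ring

theorem eich_f0 (z b c d : F) : eich (QOdd F 2) (mk5 0 0 0 1 0) (mk5 z 0 b c d) =
    b2X 1 (-z) * b2X 3 (-b) * b2X 0 (-d) := O5_ext fun z' a' b' c' d' => by
  rw [eich_apply (by simp [Q_mk5]) (by simp [B_mk5])]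
  simp (disch := decide) only [O.mul_apply, b2X_apply, b2F, mk5_inj, B_mk5, Q_mk5, smul_mk5,
    mk5_add, mk5_sub]
  refine ⟨?_, ?_, ?_, ?_, ?_⟩ <;> ring

theorem eich_e1 (z b : F) : eich (QOdd F 2) (mk5 0 0 1 0 0) (mk5 z 0 b 0 0) = b2X 5 z :=
  O5_ext fun z' a' b' c' d' => by
  rw [eich_apply (by simp [Q_mk5]) (by simp [B_mk5])]
  simp (disch := decide) only [b2X_apply, b2F, mk5_inj, B_mk5, Q_mk5, smul_mk5,
    mk5_add, mk5_sub]
  refine ⟨?_, ?_, ?_, ?_, ?_⟩ <;> ring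

theorem eich_f1 (z d : F) : eich (QOdd F 2) (mk5 0 0 0 0 1) (mk5 z 0 0 0 d) = b2X 2 (-z) :=
  O5_ext fun z' a' b' c' d' => by
  rw [eich_apply (by simp [Q_mk5]) (by simp [B_mk5])]
  simp (disch := decide) only [b2X_apply, b2F, mk5_inj, B_mk5, Q_mk5, smul_mk5,
    mk5_add, mk5_sub]
  refine ⟨?_, ?_, ?_, ?_, ?_⟩ <;> ring

/-- The diagonal isometries. -/
def diag5 (F : Type*) [Field F] : Set (O (QOdd F 2)) :=
  {g | ∃ z a b c d : F, ∀ z' a' b' c' d',
    g.1 (mk5 z' a' b' c' d') = mk5 (z * z') (a * a') (b * b') (c * c') (d * d')}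

theorem diag5_conj {g : O (QOdd F 2)} (hg : g ∈ diag5 F) {r : ℕ} (hr : r < 8) (t : F) :
    ∃ t', g * b2X r t * g⁻¹ = b2X r t' := by
  obtain ⟨z, a, b, c, d, hg⟩ := hg
  have h1 : ∃ l : F, g.1 (b2A F r) = l • b2A F r := by
    interval_cases r <;> simp [b2A, hg, smul_mk5, mk5_inj]
  have h2 : ∀ l : F, ∃ t', l • g.1 (b2B t r) = b2B t' r := by
    intro l
    interval_cases r <;> simp [b2B, hg, smul_mk5, mk5_inj]
  obtain ⟨l, h1⟩ := h1
  obtain ⟨t', h2⟩ := h2 l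
  have h3 : polar (QOdd F 2) (b2A F r) (g.1 (b2B t r)) = 0 := by
    interval_cases r <;> simp [b2A, b2B, hg, B_mk5]
  exact ⟨t', by rw [b2X, eich_conj, h1, eich_smul_left (b2A_Q hr) h3, h2, b2X]⟩

theorem exists_mul_mem_diag5 {S : Subgroup (O (QOdd F 2))} (hS : ∀ r < 8, ∀ t, b2X r t ∈ S)
    (g : O (QOdd F 2)) : ∃ s ∈ S, s * g ∈ diag5 F := by
  have h0 : IsHyp (QOdd F 2) (mk5 0 1 0 0 0) (mk5 0 0 0 1 0) :=
    ⟨by simp [Q_mk5], by simp [Q_mk5], by simp [B_mk5]⟩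
  have h1 : IsHyp (QOdd F 2) (mk5 0 0 1 0 0) (mk5 0 0 0 0 1) :=
    ⟨by simp [Q_mk5], by simp [Q_mk5], by simp [B_mk5]⟩
  obtain ⟨s, hs, c, hc, he0, hf0⟩ := exists_move_hyp (W := ⊤) (S := S) h0 trivial trivial
    (fun _ _ _ _ => trivial) (fun w _ hw => by
      obtain ⟨z, a, b, c, d, rfl⟩ := exists_mk5 w
      obtain rfl : c = 0 := by simpa [B_mk5] using hw
      rw [eich_e0]
      exact S.mul_mem (S.mul_mem (hS _ (by decide) _) (hS _ (by decide) _)) (hS _ (by decide) _))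
    (fun w _ hw => by
      obtain ⟨z, a, b, c, d, rfl⟩ := exists_mk5 w
      obtain rfl : a = 0 := by simpa [B_mk5] using hw
      rw [eich_f0]
      exact S.mul_mem (S.mul_mem (hS _ (by decide) _) (hS _ (by decide) _)) (hS _ (by decide) _))
    ⟨mk5 1 0 0 0 0, trivial, by simp [mem_perp, B_mk5], by simp [Q_mk5]⟩
    (fun u _ hu hu0 hq => by
      obtain ⟨z, a, b, c, d, rfl⟩ := exists_mk5 u
      obtain ⟨rfl, rfl⟩ : c = 0 ∧ a = 0 := by simpa [mem_perp, B_mk5] using hu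
      by_cases hb : b = 0
      · refine ⟨mk5 0 0 1 0 0, trivial, by simp [B_mk5], ?_⟩
        subst hb
        obtain rfl : z = 0 := by simpa [Q_mk5] using hq
        simp only [B_mk5]
        intro hd
        obtain rfl : d = 0 := by simpa using hd
        exact hu0 mk5_zero
      · exact ⟨mk5 0 0 0 0 1, trivial, by simp [B_mk5], by simpa [B_mk5] using hb⟩)
    (h0.map g) trivial trivial
  let W := perp (QOdd F 2) (mk5 0 1 0 0 0) (mk5 0 0 0 1 0)
  let S' : Subgroup (O (QOdd F 2)) :=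
    { carrier := {s | s ∈ S ∧ s.1 (mk5 0 1 0 0 0) = mk5 0 1 0 0 0 ∧
        s.1 (mk5 0 0 0 1 0) = mk5 0 0 0 1 0}
      one_mem' := ⟨S.one_mem, rfl, rfl⟩
      mul_mem' := fun {x y} hx hy => ⟨S.mul_mem hx.1 hy.1, by rw [O.mul_apply, hy.2.1, hx.2.1],
        by rw [O.mul_apply, hy.2.2, hx.2.2]⟩
      inv_mem' := fun {x} hx => ⟨S.inv_mem hx.1, by rw [O.inv_apply_eq_iff, hx.2.1],
        by rw [O.inv_apply_eq_iff, hx.2.2]⟩ }
  have hW : ∀ w ∈ W, ∃ z b d, w = mk5 z 0 b 0 d := fun w hw => by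
    obtain ⟨z, a, b, c, d, rfl⟩ := exists_mk5 w
    obtain ⟨rfl, rfl⟩ : c = 0 ∧ a = 0 := by simpa [W, mem_perp, B_mk5] using hw
    exact ⟨_, _, _, rfl⟩
  have hW' : ∀ z b d, mk5 z 0 b 0 d ∈ W := fun z b d => by simp [W, mem_perp, B_mk5]
  have hpres : ∀ (k : O (QOdd F 2)) {c c' : F}, c ≠ 0 → c' ≠ 0 →
      k.1 (mk5 0 1 0 0 0) = c • mk5 0 1 0 0 0 →
      k.1 (mk5 0 0 0 1 0) = c' • mk5 0 0 0 1 0 → ∀ w ∈ W, k.1 w ∈ W := by
    intro k c c' hc hc' e1 e2 w hw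
    have a1 := O.map_B k (mk5 0 1 0 0 0) w
    have a2 := O.map_B k (mk5 0 0 0 1 0) w
    rw [e1, B_smul_left, hw.1] at a1
    rw [e2, B_smul_left, hw.2] at a2
    exact ⟨(mul_eq_zero.1 a1).resolve_left hc, (mul_eq_zero.1 a2).resolve_left hc'⟩
  have hsg := hpres (s * g) hc (inv_ne_zero hc) he0 hf0
  obtain ⟨s', hs', c', hc', he1, hf1⟩ := exists_move_hyp (W := W) (S := S') h1 (hW' ..) (hW' ..)
    (fun k hk => hpres k one_ne_zero one_ne_zero (by rw [hk.2.1, one_smul])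
      (by rw [hk.2.2, one_smul]))
    (fun w hw hw' => by
      obtain ⟨z, b, d, rfl⟩ := hW w hw
      obtain rfl : d = 0 := by simpa [B_mk5] using hw'
      rw [eich_e1]
      exact ⟨hS _ (by decide) _, by simp [b2X_apply, b2F], by simp [b2X_apply, b2F]⟩)
    (fun w hw hw' => by
      obtain ⟨z, b, d, rfl⟩ := hW w hw
      obtain rfl : b = 0 := by simpa [B_mk5] using hw'
      rw [eich_f1]
      exact ⟨hS _ (by decide) _, by simp [b2X_apply, b2F], by simp [b2X_apply, b2F]⟩)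
    ⟨mk5 1 0 0 0 0, hW' .., by simp [mem_perp, B_mk5], by simp [Q_mk5]⟩
    (fun u hu hu' hu0 hq => by
      obtain ⟨z, b, d, rfl⟩ := hW u hu
      obtain ⟨rfl, rfl⟩ : d = 0 ∧ b = 0 := by simpa [mem_perp, B_mk5] using hu'
      obtain rfl : z = 0 := by simpa [Q_mk5] using hq
      exact absurd mk5_zero hu0)
    (h1.map (s * g)) (hsg _ (hW' ..)) (hsg _ (hW' ..))
  refine ⟨s' * s, S.mul_mem hs'.1 hs, ?_⟩
  rw [mul_assoc]
  set k := s' * (s * g)
  have e0 : k.1 (mk5 0 1 0 0 0) = c • mk5 0 1 0 0 0 := by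
    rw [O.mul_apply, O.mul_apply, he0, map_smul, hs'.2.1]
  have f0 : k.1 (mk5 0 0 0 1 0) = c⁻¹ • mk5 0 0 0 1 0 := by
    rw [O.mul_apply, O.mul_apply, hf0, map_smul, hs'.2.2]
  have e1 : k.1 (mk5 0 0 1 0 0) = c' • mk5 0 0 1 0 0 := he1
  have f1 : k.1 (mk5 0 0 0 0 1) = c'⁻¹ • mk5 0 0 0 0 1 := hf1
  obtain ⟨z, b, d, hz⟩ := hW _ (hpres k hc (inv_ne_zero hc) e0 f0 _ (hW' 1 0 0))
  have a1 := O.map_B k (mk5 0 0 1 0 0) (mk5 1 0 0 0 0)
  have a2 := O.map_B k (mk5 0 0 0 0 1) (mk5 1 0 0 0 0)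
  rw [e1, hz] at a1
  rw [f1, hz] at a2
  obtain rfl : d = 0 := by simpa [smul_mk5, B_mk5, hc'] using a1
  obtain rfl : b = 0 := by simpa [smul_mk5, B_mk5, hc'] using a2
  refine ⟨z, c, c', c⁻¹, c'⁻¹, fun z' a' b' c' d' => ?_⟩
  have : mk5 z' a' b' c' d' = z' • mk5 1 0 0 0 0 + a' • mk5 0 1 0 0 0 + b' • mk5 0 0 1 0 0 +
      c' • mk5 0 0 0 1 0 + d' • mk5 0 0 0 0 1 := by simp [smul_mk5, mk5_add]
  rw [this]
  simp only [map_add, map_smul, hz, e0, f0, e1, f1]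
  simp [smul_mk5, mk5_add, mul_comm]

theorem nonempty_chevB2_equiv (hF : ∃ a : F, a ≠ 0 ∧ a ≠ 1) : Nonempty (chevB2.group F ≃*
    Om (QOdd F 2) ⧸ Subgroup.center (Om (QOdd F 2))) := by
  refine nonempty_chev_equiv (by simp) (fun _ => hF) (b2St F) (fun H hH => ?_) ⟨7, by decide, 1, ?_⟩
  · let S := Subgroup.closure {g : O (QOdd F 2) | ∃ r < 8, ∃ t, g = b2X r t}
    refine le_trans (commutator_le_of_factor (S := S) (T := diag5 F)
      (exists_mul_mem_diag5 fun r hr t => Subgroup.subset_closure ⟨r, hr, t, rfl⟩) ?_ ?_) ?_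
    · rintro x ⟨z, a, b, c, d, hx⟩ y ⟨z', a', b', c', d', hy⟩
      refine O5_ext fun _ _ _ _ _ => ?_
      simp only [O.mul_apply, hx, hy, mul_left_comm]
    · intro x hx s hs
      induction hs using Subgroup.closure_induction with
      | mem s hs =>
        obtain ⟨r, hr, t, rfl⟩ := hs
        obtain ⟨t', h⟩ := diag5_conj hx hr t
        exact Subgroup.subset_closure ⟨r, hr, t', h⟩
      | one => simp
      | mul s s' _ _ h h' => convert S.mul_mem h h' using 1; group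
      | inv s _ h => convert S.inv_mem h using 1; group
    · rw [Subgroup.closure_le]
      rintro _ ⟨r, hr, t, rfl⟩
      exact hH r hr t
  · intro h
    have := congrArg (fun g : O (QOdd F 2) => g.1 (mk5 0 0 0 0 1)) h
    change (b2X 7 (1 : F)).1 _ = mk5 0 0 0 0 1 at this
    simp [b2X_apply, b2F, mk5_inj] at this

end H30
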